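import Mathlib.AlgebraicGeometry.Fiber
import Mathlib.AlgebraicGeometry.ResidueField
import Mathlib.RingTheory.LocalRing.ResidueField.Ideal

/-!
# The fibre over a prime `p` of `A` as a generic fibre over `A/p`
-/

set_option autoImplicit false
universe u
open CategoryTheory CategoryTheory.Limits AlgebraicGeometry

namespace Groth.Agent.Sga2lef.H82.Squares

variable {A : Type u} [CommRing A] {X : Scheme.{u}} (f : X ⟶ Spec (CommRingCat.of A))

instance isPrime_asIdeal (s : Spec (CommRingCat.of A)) : s.asIdeal.IsPrime := s.isPrime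

/-- The structure morphism of the fibre to the spectrum of `κ(p)`. -/
noncomputable def toKappa (s : Spec (CommRingCat.of A)) :
    f.fiber s ⟶ Spec (CommRingCat.of s.asIdeal.ResidueField) :=
  f.fiberToSpecResidueField s ≫ Spec.map (Scheme.Spec.residueFieldIso (CommRingCat.of A) s).inv

theorem isPullback_kappa (s : Spec (CommRingCat.of A)) :
    IsPullback (f.fiberι s) (toKappa f s) f
      (Spec.map (CommRingCat.ofHom (algebraMap A s.asIdeal.ResidueField))) := by
  have h : IsPullback (f.fiberι s) (f.fiberToSpecResidueField s) f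
      ((Spec (CommRingCat.of A)).fromSpecResidueField s) := IsPullback.of_hasPullback _ _
  refine IsPullback.of_iso h (Iso.refl _) (Iso.refl _)
    (asIso (Spec.map (Scheme.Spec.residueFieldIso (CommRingCat.of A) s).inv)) (Iso.refl _) ?_ ?_ ?_ ?_
  · simp
  · rw [Iso.refl_hom, Category.id_comp]
    rfl
  · simp
  · rw [Iso.refl_hom, Category.comp_id]
    exact (Scheme.Spec.map_residueFieldIso_inv_eq_fromSpecResidueField (CommRingCat.of A) s).symm

/-- The fibre over `p` maps to the base change to `A/p`. -/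
theorem exists_square (s : Spec (CommRingCat.of A)) (X₁ : Scheme.{u}) (j₁ : X₁ ⟶ X)
    (q₁ : X₁ ⟶ Spec (CommRingCat.of (A ⧸ s.asIdeal)))
    (H₁ : IsPullback j₁ q₁ f (Spec.map (CommRingCat.ofHom (algebraMap A (A ⧸ s.asIdeal))))) :
    ∃ j₂ : f.fiber s ⟶ X₁, j₂ ≫ j₁ = f.fiberι s ∧
      IsPullback j₂ (toKappa f s) q₁
        (Spec.map (CommRingCat.ofHom (algebraMap (A ⧸ s.asIdeal) s.asIdeal.ResidueField))) := by
  have hcomp : Spec.map (CommRingCat.ofHom (algebraMap (A ⧸ s.asIdeal) s.asIdeal.ResidueField)) ≫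
      Spec.map (CommRingCat.ofHom (algebraMap A (A ⧸ s.asIdeal))) =
      Spec.map (CommRingCat.ofHom (algebraMap A s.asIdeal.ResidueField)) := by
    rw [← Spec.map_comp, ← CommRingCat.ofHom_comp, ← IsScalarTower.algebraMap_eq]
  have H := isPullback_kappa f s
  have hw : f.fiberι s ≫ f = (toKappa f s ≫
      Spec.map (CommRingCat.ofHom (algebraMap (A ⧸ s.asIdeal) s.asIdeal.ResidueField))) ≫
      Spec.map (CommRingCat.ofHom (algebraMap A (A ⧸ s.asIdeal))) := by
    rw [Category.assoc, hcomp, H.w]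
  refine ⟨H₁.lift (f.fiberι s) _ hw, H₁.lift_fst _ _ _, ?_⟩
  have h2 : IsPullback (H₁.lift (f.fiberι s) _ hw ≫ j₁) (toKappa f s) f
      (Spec.map (CommRingCat.ofHom (algebraMap (A ⧸ s.asIdeal) s.asIdeal.ResidueField)) ≫
        Spec.map (CommRingCat.ofHom (algebraMap A (A ⧸ s.asIdeal)))) := by
    rw [hcomp, H₁.lift_fst]
    exact H
  exact IsPullback.of_right h2 (H₁.lift_snd _ _ _) H₁

end Groth.Agent.Sga2lef.H82.Squares
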