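import Groth.Agent.Sga2.ParaExt
import Groth.Agent.Sga2lef.H82.Squares

/-!
# Points off a neighbourhood of an ample divisor are closed in their fibre
-/

set_option autoImplicit false
universe u
open CategoryTheory CategoryTheory.Limits AlgebraicGeometry TopologicalSpace

namespace Groth.Agent.Sga2lef.H82.ClosedFib

open Groth.Agent.Sga2.ParaExt

variable {A : Type u} [CommRing A] {X : Scheme.{u}} (f : X ⟶ Spec (CommRingCat.of A)) [IsProper f]

/-- On a proper `A`-scheme with an ample effective Cartier divisor, a point whose closure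
misses the divisor is closed in its fibre. -/
theorem isClosed_asFiber (𝓘 : X.IdealSheafData) (L : X.Modules)
    (hL : ClSub.IsInverseOf L (ClSub.idealMod 𝓘)) (hamp : CohB1.IsAmple L) (x : X)
    (hx : ∀ y : X, x ⤳ y → y ∉ (𝓘.support : Set X)) : IsClosed ({f.asFiber x} : Set (f.fiber (f x))) := by
  obtain ⟨Z, i, _, _, hgen, hrange⟩ := CycA.ClosurePt.exists_closure_subscheme (f.asFiber x)
  have H := Squares.isPullback_kappa f (f x)
  have haff : IsAffineHom (f.fiberι (f x)) := MorphismProperty.of_isPullback H.flip inferInstance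
  have hprop : IsProper (Squares.toKappa f (f x)) := MorphismProperty.of_isPullback H inferInstance
  have hi : ∀ z : Z, (i ≫ f.fiberι (f x)).base z ∉ (𝓘.support : Set X) := by
    intro z
    refine hx _ ?_
    have h1 : f.asFiber x ⤳ i z := by
      rw [specializes_iff_mem_closure, ← hrange]
      exact ⟨z, rfl⟩
    have h2 := h1.map (f.fiberι (f x)).continuous
    rw [f.fiberι_asFiber] at h2
    exact h2
  obtain ⟨e⟩ := pullback_inverse_trivial 𝓘 L hL (i ≫ f.fiberι (f x)) hi
  have hZ : CohB1.IsAmple (Coh.structureModule Z) :=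
    Flat2H.FamDict.isAmple_of_iso e (Flat2H.FamOpen.isAmple_pullback_of_isAffineHom (i ≫ f.fiberι (f x)) hamp)
  have : Z.IsQuasiAffine := Ega2.Weight.isQuasiAffine_of_isAmple_structureModule hZ
  have hf : IsField Γ(Z, ⊤) := isField_of_universallyClosed (f x).asIdeal.ResidueField
    (i ≫ Squares.toKappa f (f x))
  have := subsingleton_of_isField hf
  have : Set.range i = {f.asFiber x} := by
    apply Set.Subset.antisymm
    · rintro _ ⟨z, rfl⟩
      rw [Subsingleton.elim z (genericPoint Z), hgen]
      rfl
    · rintro _ rfl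
      exact ⟨_, hgen⟩
  rw [← this]
  exact i.isClosedEmbedding.isClosed_range

end Groth.Agent.Sga2lef.H82.ClosedFib
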