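import Groth.Agent.Ega3A.TFunBasic
import Mathlib.Algebra.Category.ModuleCat.Abelian
import Mathlib.Algebra.Homology.ShortComplex.ModuleCat
import Mathlib.RingTheory.Noetherian.Basic

/-!
# Noetherian induction for vanishing of `H_i(P_m ⊗ A/I)`

A family `P_m` of complexes of flat `A`-modules, zero homology in positive degrees. If for every prime `p` some `a ∉ p`
has powers killing all elements of `H_{-i}(P_m ⊗ A/p)`, `i ≤ n`, `m` large, then these groups vanish for `m` large.
-/

set_option autoImplicit false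
universe u

open CategoryTheory CategoryTheory.Limits

namespace Groth.Agent.Sga2lef.H82.Devis

open Groth.Agent.Ega3A.TFunBasic

variable {A : Type u} [CommRing A]

section SES

variable (I : Ideal A) (a : A)

/-- The ideal `(I : a)`. -/
def col : Ideal A := Submodule.comap (LinearMap.mulLeft A a) I

theorem mem_col {x : A} : x ∈ col I a ↔ a * x ∈ I := Iff.rfl

/-- Multiplication by `a`, `A/(I:a) → A/I`. -/
def fm : (A ⧸ col I a) →ₗ[A] (A ⧸ I) := Submodule.mapQ (col I a) I (LinearMap.mulLeft A a) le_rfl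

/-- The projection `A/I → A/(I + aA)`. -/
def gm : (A ⧸ I) →ₗ[A] (A ⧸ (I ⊔ Ideal.span {a})) :=
  Submodule.mapQ I (I ⊔ Ideal.span {a}) LinearMap.id (le_sup_left : I ≤ I ⊔ Ideal.span {a})

theorem fm_mk (x : A) : fm I a (Submodule.Quotient.mk x) = Submodule.Quotient.mk (a * x) := rfl
theorem gm_mk (x : A) : gm I a (Submodule.Quotient.mk x) = Submodule.Quotient.mk x := rfl

theorem fm_injective : Function.Injective (fm I a) := by
  rw [injective_iff_map_eq_zero]
  intro x hx
  obtain ⟨y, rfl⟩ := Submodule.Quotient.mk_surjective _ x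
  rw [fm_mk, Submodule.Quotient.mk_eq_zero] at hx
  rw [Submodule.Quotient.mk_eq_zero]
  exact hx

theorem gm_surjective : Function.Surjective (gm I a) := by
  intro x
  obtain ⟨y, rfl⟩ := Submodule.Quotient.mk_surjective _ x
  exact ⟨Submodule.Quotient.mk y, rfl⟩

theorem exact : Function.Exact (fm I a) (gm I a) := by
  intro x
  obtain ⟨y, rfl⟩ := Submodule.Quotient.mk_surjective _ x
  rw [gm_mk, Submodule.Quotient.mk_eq_zero]
  constructor
  · intro hy
    obtain ⟨i, hi, c, hc, h⟩ := Submodule.mem_sup.mp hy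
    obtain ⟨d, rfl⟩ := Ideal.mem_span_singleton'.mp hc
    refine ⟨Submodule.Quotient.mk d, ?_⟩
    rw [fm_mk, Submodule.Quotient.eq]
    have : a * d - y = -i := by rw [← h]; ring
    rw [this]
    exact I.neg_mem hi
  · rintro ⟨z, hz⟩
    obtain ⟨d, rfl⟩ := Submodule.Quotient.mk_surjective _ z
    rw [fm_mk, Submodule.Quotient.eq] at hz
    have h1 : y = -(a * d - y) + d * a := by ring
    rw [h1]
    exact Submodule.add_mem_sup (I.neg_mem hz) (Ideal.mem_span_singleton'.mpr ⟨d, rfl⟩)

/-- `0 → A/(I:a) → A/I → A/(I + aA) → 0`. -/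
noncomputable def ses : ShortComplex (ModuleCat.{u} A) :=
  ShortComplex.mk (ModuleCat.ofHom (fm I a)) (ModuleCat.ofHom (gm I a))
    (ModuleCat.hom_ext (LinearMap.ext fun x => (exact I a).apply_apply_eq_zero x))

theorem ses_shortExact : (ses I a).ShortExact where
  exact := (ShortComplex.ShortExact.moduleCat_exact_iff_function_exact (ses I a)).mpr (exact I a)
  mono_f := (ModuleCat.mono_iff_injective _).mpr (fm_injective I a)
  epi_g := (ModuleCat.epi_iff_surjective _).mpr (gm_surjective I a)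

/-- `0 → A/I → A/I → A/(I + aA) → 0` for `a` regular on `A/I`. -/
theorem exact' : Function.Exact (LinearMap.lsmul A (A ⧸ I) a) (gm I a) := by
  intro x
  rw [exact I a x]
  constructor
  · rintro ⟨z, rfl⟩
    obtain ⟨d, rfl⟩ := Submodule.Quotient.mk_surjective _ z
    exact ⟨Submodule.Quotient.mk d, rfl⟩
  · rintro ⟨z, rfl⟩
    obtain ⟨d, rfl⟩ := Submodule.Quotient.mk_surjective _ z
    exact ⟨Submodule.Quotient.mk d, rfl⟩

end SES

section Main

variable (P : ℕ → ChainComplex (ModuleCat.{u} A) ℤ) (hP : ∀ m i, Module.Flat A ((P m).X i))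

/-- `a` acts injectively on `H_{-i}(P ⊗ A/I)` if it does so on `A/I` and the next homology of `P ⊗ A/(I + a)` vanishes. -/
theorem smul_injective (Q : ChainComplex (ModuleCat.{u} A) ℤ) (hQ : ∀ i, Module.Flat A (Q.X i)) (I : Ideal A) (a : A)
    (ha : ∀ x : A ⧸ I, a • x = 0 → x = 0) (i : ℤ)
    (h : Subsingleton ((CohIII.TFun Q (i + 1)).obj (ModuleCat.of A (A ⧸ (I ⊔ Ideal.span {a})))))
    (x : (CohIII.TFun Q i).obj (ModuleCat.of A (A ⧸ I))) (hx : a • x = 0) : x = 0 := by
  let S : ShortComplex (ModuleCat.{u} A) :=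
    ShortComplex.mk (a • 𝟙 (ModuleCat.of A (A ⧸ I))) (ModuleCat.ofHom (gm I a))
      (ModuleCat.hom_ext (LinearMap.ext fun x => (exact' I a).apply_apply_eq_zero x))
  have hS : S.ShortExact :=
    { exact := (ShortComplex.ShortExact.moduleCat_exact_iff_function_exact S).mpr (exact' I a)
      mono_f := (ModuleCat.mono_iff_injective _).mpr (by
        rw [injective_iff_map_eq_zero]
        exact ha)
      epi_g := (ModuleCat.epi_iff_surjective _).mpr (gm_surjective I a) }
  have hδ : δT Q hQ hS (i + 1) i (by simp) = 0 :=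
    (ModuleCat.isZero_of_subsingleton ((CohIII.TFun Q (i + 1)).obj S.X₃)).eq_of_src _ _
  have hmono : Mono ((CohIII.TFun Q i).map S.f) := (T_exact₁ Q hQ hS (i + 1) i (by simp)).mono_g hδ
  have h1 : (CohIII.TFun Q i).map S.f = a • 𝟙 _ := by
    change (CohIII.TFun Q i).map (a • 𝟙 (ModuleCat.of A (A ⧸ I))) = _
    rw [Functor.map_smul, CategoryTheory.Functor.map_id]
  rw [h1] at hmono
  have h2 := (ModuleCat.mono_iff_injective _).mp hmono
  apply h2
  rw [map_zero]
  exact hx

/-- Vanishing for extensions. -/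
theorem subsingleton_of_ses (Q : ChainComplex (ModuleCat.{u} A) ℤ) (hQ : ∀ i, Module.Flat A (Q.X i))
    {S : ShortComplex (ModuleCat.{u} A)} (hS : S.ShortExact) (i : ℤ)
    (h1 : Subsingleton ((CohIII.TFun Q i).obj S.X₁)) (h3 : Subsingleton ((CohIII.TFun Q i).obj S.X₃)) :
    Subsingleton ((CohIII.TFun Q i).obj S.X₂) := by
  have h := (ShortComplex.ShortExact.moduleCat_exact_iff_function_exact _).mp (T_exact₂ Q hQ hS i)
  refine ⟨fun x y => ?_⟩
  have key : ∀ z : (CohIII.TFun Q i).obj S.X₂, z = 0 := by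
    intro z
    obtain ⟨w, hw⟩ := (h z).mp (@Subsingleton.elim _ h3 _ _)
    rw [← hw, @Subsingleton.elim _ h1 w 0]
    exact map_zero _
  rw [key x, key y]

include hP in
theorem main [IsNoetherianRing A] (hpos : ∀ m (M : ModuleCat.{u} A), Subsingleton ((CohIII.TFun (P m) 1).obj M))
    (n : ℕ)
    (hgen : ∀ p : Ideal A, p.IsPrime → ∃ a : A, a ∉ p ∧ ∃ m₁ : ℕ, ∀ m, m₁ ≤ m → ∀ i ≤ n,
      ∀ x : (CohIII.TFun (P m) (-(i : ℤ))).obj (ModuleCat.of A (A ⧸ p)), ∃ k : ℕ, a ^ k • x = 0)
    (I : Ideal A) :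
    ∃ m₀ : ℕ, ∀ m, m₀ ≤ m → ∀ i ≤ n, Subsingleton ((CohIII.TFun (P m) (-(i : ℤ))).obj (ModuleCat.of A (A ⧸ I))) := by
  refine IsNoetherian.induction (R := A) (M := A)
    (P := fun I : Ideal A => ∃ m₀ : ℕ, ∀ m, m₀ ≤ m → ∀ i ≤ n,
      Subsingleton ((CohIII.TFun (P m) (-(i : ℤ))).obj (ModuleCat.of A (A ⧸ I)))) ?_ I
  intro (I : Ideal A) ih
  by_cases hI : I.IsPrime
  · obtain ⟨a, ha, m₁, hm₁⟩ := hgen I hI
    have hlt : I < I ⊔ Ideal.span {a} := by
      refine lt_of_le_of_ne le_sup_left fun h => ha ?_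
      rw [h]
      exact Ideal.mem_sup_right (Ideal.mem_span_singleton_self a)
    obtain ⟨m₀, hm₀⟩ := ih _ hlt
    refine ⟨max m₀ m₁, fun m hm i hi => ?_⟩
    have hreg : ∀ x : A ⧸ I, a • x = 0 → x = 0 := by
      intro x hx
      obtain ⟨y, rfl⟩ := Submodule.Quotient.mk_surjective _ x
      rw [← Submodule.Quotient.mk_smul, Submodule.Quotient.mk_eq_zero] at hx
      rw [Submodule.Quotient.mk_eq_zero]
      exact (hI.mem_or_mem hx).resolve_left ha
    have hnext : Subsingleton ((CohIII.TFun (P m) (-(i : ℤ) + 1)).obj (ModuleCat.of A (A ⧸ (I ⊔ Ideal.span {a})))) := by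
      cases i with
      | zero => simpa using hpos m _
      | succ j =>
        have h1 : (-((j + 1 : ℕ) : ℤ) + 1) = -(j : ℤ) := by push_cast; ring
        rw [h1]
        exact hm₀ m ((le_max_left _ _).trans hm) j (by omega)
    have hinj := smul_injective (P m) (hP m) I a hreg (-(i : ℤ)) hnext
    have key : ∀ x : (CohIII.TFun (P m) (-(i : ℤ))).obj (ModuleCat.of A (A ⧸ I)), x = 0 := by
      intro x
      obtain ⟨k, hk⟩ := hm₁ m ((le_max_right _ _).trans hm) i hi x
      induction k with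
      | zero => simpa using hk
      | succ k ihk =>
        apply ihk
        apply hinj
        rw [← mul_smul, ← pow_succ']
        exact hk
    exact ⟨fun x y => (key x).trans (key y).symm⟩
  · by_cases htop : I = ⊤
    · refine ⟨0, fun m _ i _ => ?_⟩
      have h1 : IsZero (ModuleCat.of A (A ⧸ I)) := by
        have : Subsingleton (A ⧸ I) := by
          rw [htop]
          infer_instance
        exact ModuleCat.isZero_of_subsingleton _
      exact ModuleCat.subsingleton_of_isZero ((CohIII.TFun (P m) (-(i : ℤ))).map_isZero h1)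
    · rw [Ideal.isPrime_iff] at hI
      push Not at hI
      obtain ⟨a, b, hab, ha, hb⟩ := hI htop
      have hlt : I < I ⊔ Ideal.span {a} := by
        refine lt_of_le_of_ne le_sup_left fun h => ha ?_
        rw [h]
        exact Ideal.mem_sup_right (Ideal.mem_span_singleton_self a)
      have hlt' : I < col I a := by
        refine lt_of_le_of_ne (fun x hx => I.mul_mem_left a hx) fun h => hb ?_
        rw [h]
        exact hab
      obtain ⟨m₀, hm₀⟩ := ih _ hlt
      obtain ⟨m₁, hm₁⟩ := ih _ hlt'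
      refine ⟨max m₀ m₁, fun m hm i hi => ?_⟩
      exact subsingleton_of_ses (P m) (hP m) (ses_shortExact I a) (-(i : ℤ))
        (hm₁ m ((le_max_right _ _).trans hm) i hi) (hm₀ m ((le_max_left _ _).trans hm) i hi)

end Main

end Groth.Agent.Sga2lef.H82.Devis
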