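import Groth.Agent.Ega4dB.FiberDepth
import Groth.Agent.Ega4dB.FiberStalk
import Groth.Agent.Ega4A.DepthFlat
import Groth.Agent.CalgB.Depth1
import Mathlib.AlgebraicGeometry.Morphisms.Flat
import Mathlib.AlgebraicGeometry.Noetherian

/-!
# Depth of the fibre and depth of the total space of a flat morphism
-/

set_option autoImplicit false
universe u
open CategoryTheory CategoryTheory.Limits AlgebraicGeometry TensorProduct

namespace Groth.Agent.Sga2lef.H82.FibDepth

open Groth.Agent.Ega4dB.FiberDepth Groth.Agent.Ega4dB.FiberStalk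

section Alg

variable {R S : Type u} [CommRing R] [CommRing S] [IsLocalRing R] [IsLocalRing S]
  [IsNoetherianRing R] [IsNoetherianRing S] [Algebra R S] [IsLocalHom (algebraMap R S)] [Module.Flat R S]

theorem depth_quot_le :
    LocCoh.depth S (S ⧸ (IsLocalRing.maximalIdeal R).map (algebraMap R S)) ≤ LocCoh.depth S S := by
  have h1 := Groth.Agent.Ega4A.DepthFlat.depth_tensor_eq_add (R := R) (S := S) S R
  have h2 : LocCoh.depth S (S ⊗[R] R) = LocCoh.depth S S :=
    Groth.Agent.CalgB.Depth1.depth_congr (TensorProduct.AlgebraTensorModule.rid R S S)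
  have h3 : LocCoh.depth S (S ⧸ (IsLocalRing.maximalIdeal R).map (algebraMap R S) • (⊤ : Submodule S S)) =
      LocCoh.depth S (S ⧸ (IsLocalRing.maximalIdeal R).map (algebraMap R S)) :=
    Groth.Agent.CalgB.Depth1.depth_congr (Submodule.quotEquivOfEq _ _ (by simp))
  rw [h2, h3] at h1
  rw [h1]
  exact le_add_self

end Alg

variable {X S : Scheme.{u}} (f : X ⟶ S)

theorem depth_fiberStalk_eq (x : X) :
    LocCoh.depth (CInt.fiberStalk f x) (CInt.fiberStalk f x) =
      LocCoh.depth (X.presheaf.stalk x) (X.presheaf.stalk x ⧸ fibIdeal f x) := by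
  symm
  refine depth_eq_of_semilinear (toFiberStalk f x).hom (toFiberStalk_surjective f x)
    (fiberStalkEquiv f x).toAddEquiv ?_
  intro r n
  obtain ⟨n, rfl⟩ := Ideal.Quotient.mk_surjective n
  change fiberStalkEquiv f x (Ideal.Quotient.mk _ (r * n)) = _ * fiberStalkEquiv f x (Ideal.Quotient.mk _ n)
  rw [fiberStalkEquiv_mk, fiberStalkEquiv_mk, map_mul]

/-- For `f` flat the depth of the fibre at `x` is at most the depth of the total space at `x`. -/
theorem depth_fiberStalk_le [Flat f] [IsLocallyNoetherian X] [IsLocallyNoetherian S] (x : X) :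
    LocCoh.depth (CInt.fiberStalk f x) (CInt.fiberStalk f x) ≤
      LocCoh.depth (X.presheaf.stalk x) (X.presheaf.stalk x) := by
  rw [depth_fiberStalk_eq]
  letI : Algebra (S.presheaf.stalk (f x)) (X.presheaf.stalk x) := (f.stalkMap x).hom.toAlgebra
  have : Module.Flat (S.presheaf.stalk (f x)) (X.presheaf.stalk x) := Flat.stalkMap f x
  have : IsLocalHom (algebraMap (S.presheaf.stalk (f x)) (X.presheaf.stalk x)) :=
    inferInstanceAs (IsLocalHom (f.stalkMap x).hom)
  exact depth_quot_le (R := S.presheaf.stalk (f x)) (S := X.presheaf.stalk x)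

/-- A point of a fibre is of the form `asFiber`. -/
theorem isClosed_asFiber_of {s : S} (z : f.fiber s) {x : X} (hx : f.fiberι s z = x) (hs : f x = s)
    (hz : IsClosed ({z} : Set (f.fiber s))) : IsClosed ({f.asFiber x} : Set (f.fiber (f x))) := by
  subst hs
  have h1 : z = f.asFiber x := by
    apply (f.fiberι (f x)).isEmbedding.injective
    rw [f.fiberι_asFiber]
    exact hx
  rw [← h1]
  exact hz

theorem f_fiberι (s : S) (z : f.fiber s) : f (f.fiberι s z) = s := by
  have : f.fiberι s z ∈ Set.range (f.fiberι s) := ⟨z, rfl⟩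
  rw [f.range_fiberι] at this
  exact this

end Groth.Agent.Sga2lef.H82.FibDepth
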